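import Mathlib

/-!
An integral problem without solutions: five columns of a character table with norms
`108, 54, 81, 9, 9`, and four class multiplication constants.
-/

set_option autoImplicit false
set_option maxRecDepth 100000

namespace CfsgLib.Rec3.Ph

abbrev V : Type := ℤ × ℤ × ℤ × ℤ × ℤ

/-- symmetric matrices -/
structure M (α : Type) where
  (aa ab ac ad ae bb bc bd be cc cd ce dd de ee : α)

def M.sub (R : M ℤ) (v : V) : M ℤ :=
    ⟨R.aa - v.1 * v.1, R.ab - v.1 * v.2.1, R.ac - v.1 * v.2.2.1, R.ad - v.1 * v.2.2.2.1, R.ae -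
    v.1 * v.2.2.2.2, R.bb - v.2.1 * v.2.1, R.bc - v.2.1 * v.2.2.1, R.bd - v.2.1 * v.2.2.2.1, R.be
    - v.2.1 * v.2.2.2.2, R.cc - v.2.2.1 * v.2.2.1, R.cd - v.2.2.1 * v.2.2.2.1, R.ce - v.2.2.1 *
    v.2.2.2.2, R.dd - v.2.2.2.1 * v.2.2.2.1, R.de - v.2.2.2.1 * v.2.2.2.2, R.ee - v.2.2.2.2 *
    v.2.2.2.2⟩

def dl (v : V) : M ℕ :=
    ⟨(16 - v.1 * v.1).toNat, (16 - v.1 * v.2.1).toNat, (16 - v.1 * v.2.2.1).toNat, (16 - v.1 *
    v.2.2.2.1).toNat, (16 - v.1 * v.2.2.2.2).toNat, (16 - v.2.1 * v.2.1).toNat, (16 - v.2.1 *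
    v.2.2.1).toNat, (16 - v.2.1 * v.2.2.2.1).toNat, (16 - v.2.1 * v.2.2.2.2).toNat, (16 - v.2.2.1
    * v.2.2.1).toNat, (16 - v.2.2.1 * v.2.2.2.1).toNat, (16 - v.2.2.1 * v.2.2.2.2).toNat, (16 -
    v.2.2.2.1 * v.2.2.2.1).toNat, (16 - v.2.2.2.1 * v.2.2.2.2).toNat, (16 - v.2.2.2.2 *
    v.2.2.2.2).toNat⟩

def add (R S : M ℕ) : M ℕ :=
    ⟨Nat.add R.aa S.aa, Nat.add R.ab S.ab, Nat.add R.ac S.ac, Nat.add R.ad S.ad, Nat.add R.ae
    S.ae, Nat.add R.bb S.bb, Nat.add R.bc S.bc, Nat.add R.bd S.bd, Nat.add R.be S.be, Nat.add R.cc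
    S.cc, Nat.add R.cd S.cd, Nat.add R.ce S.ce, Nat.add R.dd S.dd, Nat.add R.de S.de, Nat.add R.ee
    S.ee⟩

/-- `S` is `R` shifted by `o` -/
def Rel (S : M ℕ) (o : ℕ) (R : M ℤ) : Prop :=
    (S.aa : ℤ) = R.aa + o ∧ (S.ab : ℤ) = R.ab + o ∧ (S.ac : ℤ) = R.ac + o ∧ (S.ad : ℤ) = R.ad + o
    ∧ (S.ae : ℤ) = R.ae + o ∧ (S.bb : ℤ) = R.bb + o ∧ (S.bc : ℤ) = R.bc + o ∧ (S.bd : ℤ) = R.bd +
    o ∧ (S.be : ℤ) = R.be + o ∧ (S.cc : ℤ) = R.cc + o ∧ (S.cd : ℤ) = R.cd + o ∧ (S.ce : ℤ) = R.ce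
    + o ∧ (S.dd : ℤ) = R.dd + o ∧ (S.de : ℤ) = R.de + o ∧ (S.ee : ℤ) = R.ee + o

instance (S : M ℕ) (o : ℕ) (R : M ℤ) : Decidable (Rel S o R) := by unfold Rel; infer_instance

def cs (o x y w : ℕ) : Bool :=
  Nat.blt (Nat.mul (Nat.sub x o) (Nat.sub y o))
    (Nat.mul (Nat.add (Nat.sub w o) (Nat.sub o w)) (Nat.add (Nat.sub w o) (Nat.sub o w)))

def bad (S : M ℕ) (o : ℕ) : Bool :=
    Nat.blt S.aa o || Nat.blt S.bb o || Nat.blt S.cc o || Nat.blt S.dd o || Nat.blt S.ee o || cs o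
    S.aa S.bb S.ab || cs o S.aa S.cc S.ac || cs o S.aa S.dd S.ad || cs o S.aa S.ee S.ae || cs o
    S.bb S.cc S.bc || cs o S.bb S.dd S.bd || cs o S.bb S.ee S.be || cs o S.cc S.dd S.cd || cs o
    S.cc S.ee S.ce || cs o S.dd S.ee S.de

def co : ℕ → V → ℤ
  | 0, v => v.1
  | 1, v => v.2.1
  | 2, v => v.2.2.1
  | 3, v => v.2.2.2.1
  | _, v => v.2.2.2.2

def dg : ℕ → M ℕ → ℕ
  | 0, S => S.aa
  | 1, S => S.bb
  | 2, S => S.cc
  | 3, S => S.dd
  | _, S => S.ee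

def dot (u v : V) : ℤ :=
  u.1 * v.1 + u.2.1 * v.2.1 + u.2.2.1 * v.2.2.1 + u.2.2.2.1 * v.2.2.2.1 + u.2.2.2.2 * v.2.2.2.2

def ev (R : M ℤ) (u w : V) : ℤ :=
    u.1 * w.1 * R.aa + (u.1 * w.2.1 + u.2.1 * w.1) * R.ab + (u.1 * w.2.2.1 + u.2.2.1 * w.1) * R.ac
    + (u.1 * w.2.2.2.1 + u.2.2.2.1 * w.1) * R.ad + (u.1 * w.2.2.2.2 + u.2.2.2.2 * w.1) * R.ae +
    u.2.1 * w.2.1 * R.bb + (u.2.1 * w.2.2.1 + u.2.2.1 * w.2.1) * R.bc + (u.2.1 * w.2.2.2.1 +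
    u.2.2.2.1 * w.2.1) * R.bd + (u.2.1 * w.2.2.2.2 + u.2.2.2.2 * w.2.1) * R.be + u.2.2.1 * w.2.2.1
    * R.cc + (u.2.2.1 * w.2.2.2.1 + u.2.2.2.1 * w.2.2.1) * R.cd + (u.2.2.1 * w.2.2.2.2 + u.2.2.2.2
    * w.2.2.1) * R.ce + u.2.2.2.1 * w.2.2.2.1 * R.dd + (u.2.2.2.1 * w.2.2.2.2 + u.2.2.2.2 *
    w.2.2.2.1) * R.de + u.2.2.2.2 * w.2.2.2.2 * R.ee

def vE (c : V) : ℤ := dot (1, 1, -3, 3, 3) c
def vY (c : V) : ℤ := dot (1, 1, -3, -3, 0) c
def vZ (c : V) : ℤ := dot (1, 1, -3, 0, -3) c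
def vA (c : V) : ℤ := dot (1, 1, 0, 0, 0) c
def vB (c : V) : ℤ := dot (-2, 1, 0, 0, 0) c

/-- the degree modulo `81` -/
def vD (c : V) : ℤ := -(6 * vE c + 12 * vY c + 26 * vZ c + 18 * vA c + 18 * vB c)

def vF (l : V) (c : V) : ℤ :=
  l.1 * (vE c * vE c * vY c) + l.2.1 * (vY c * vE c * vY c) + l.2.2.1 * (vY c * vZ c * vY c) +
    l.2.2.2.1 * (vZ c * vZ c * vY c)

def rhs (l : V) : ℤ := l.1 * 288 + l.2.1 * 144 + l.2.2.1 * 216 + l.2.2.2.1 * 3078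

def qq (D : ℤ) : ℤ :=
  if D % 3 ≠ 0 then 81 else if D % 9 ≠ 0 then 27 else if D % 27 ≠ 0 then 9 else
    if D % 81 ≠ 0 then 3 else 1

def pv (l c : V) : ℤ :=
  (vF l c / (81 / qq (vD c)) *
    Int.ofNat (Nat.mod (Nat.pow (vD c / (81 / qq (vD c)) % 2187).toNat 1457) 2187)) % 2187

def okc (l c : V) : Bool :=
  decide (qq (vD c) * (vF l c - vD c * pv l c) % (81 * l.2.2.2.2) = 0) &&
    decide (qq (vD c) * pv l c % l.2.2.2.2 = 0)

def ok (acc : List V) (l : V) : Bool :=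
  acc.all (okc l) && decide (3 * (acc.map (pv l)).sum % l.2.2.2.2 = 0) &&
    decide ((rhs l - (acc.map (pv l)).sum) % l.2.2.2.2 ≠ 0) &&
    decide ((rhs l - 2 * (acc.map (pv l)).sum) % l.2.2.2.2 ≠ 0)

def certs : List V := [(0, 0, 0, 1, 81), (3, -3, -2, -4, 81), (3, 0, 2, -2, 243),
  (0, 3, -4, -4, 81), (1, -2, -3, -4, 81), (-5, -11, 8, 8, 2187), (-4, 2, 1, 1, 729)]

def step (ih : ℕ → List V → List (List V) → M ℕ → ℕ → List V → Bool) (k : ℕ) (g : List V)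
    (gs : List (List V)) (S : M ℕ) (o : ℕ) (acc : List V) : Bool :=
  match Nat.beq (dg k S) o, gs, g with
  | true, [], _ => certs.any (ok acc)
  | true, g' :: gs', _ => ih (Nat.succ k) g' gs' S o acc
  | false, _, [] => true
  | false, _, c :: t => ih k t gs S o acc && (bad (add S (dl c)) (Nat.add o 16) ||
      ih k (c :: t) gs (add S (dl c)) (Nat.add o 16) (c :: acc))

noncomputable def go : ℕ → ℕ → List V → List (List V) → M ℕ → ℕ → List V → Bool :=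
  Nat.rec (fun _ _ _ _ _ _ => false) fun _ ih => step ih

def groups : List (List V) :=
[[(1, 1, 1, -1, 1), (1, 1, 1, 1, -1), (1, 1, 0, 1, -1), (1, 0, 1, -1, 1), (1, 1, 1, -1, 0), (1,
1, 1, 0, -1), (1, 1, 1, 0, 1), (1, 1, 1, 1, 0), (1, 0, 0, -1, 1), (1, 1, 0, 0, 1), (1, 0, 0, 1,
-1), (1, 1, 0, 1, 0), (1, 0, 1, -1, 0), (1, 0, 1, 0, -1), (1, 1, 1, 0, 0), (1, 0, 0, -1, 0), (1,
0, 0, 0, -1), (1, 0, 0, 0, 1), (1, 1, 0, 0, 0), (1, 0, 0, 1, 0), (1, 0, 1, 0, 0), (1, 0, 0, 0,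
0)], [(0, 1, 1, -1, -1), (0, 1, 1, -1, 1), (0, 1, 1, 1, -1), (0, 1, 1, -1, 0), (0, 1, 1, 0, -1),
(0, 1, 1, 0, 1), (0, 1, 1, 1, 0), (0, 1, 0, -1, 1), (0, 1, 0, 1, -1), (0, 1, 0, 1, 1), (0, 1, 1,
0, 0), (0, 1, 0, -1, 0), (0, 1, 0, 1, 0), (0, 1, 0, 0, -1), (0, 1, 0, 0, 1), (0, 1, 0, 0, 0)],
[(0, 0, 1, -2, 1), (0, 0, 1, -1, -1), (0, 0, 1, -1, 1), (0, 0, 1, 1, -1), (0, 0, 1, -1, 0), (0,
0, 1, 0, -1), (0, 0, 1, 0, 1), (0, 0, 1, 1, 0), (0, 0, 1, 0, 0)], [(0, 0, 0, 1, -2), (0, 0, 0,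
2, -1), (0, 0, 0, 1, -1), (0, 0, 0, 1, 1), (0, 0, 0, 1, 0)], [(0, 0, 0, 0, 2), (0, 0, 0, 0, 1)]]

def R0 : M ℤ := ⟨2, 1, 1, 0, 0, 4, 2, 0, 0, 4, -1, 0, 5, -2, 6⟩

def S0 : M ℕ := ⟨4, 3, 3, 2, 2, 6, 4, 2, 2, 6, 1, 2, 7, 0, 8⟩

theorem go_true : go 90 0 groups.head! groups.tail S0 2 [(0, 1, 0, 0, 0)] = true := by
  decide +kernel

variable {ι : Type*}

def gram (s : Finset ι) (c : ι → V) : M ℤ :=
    ⟨∑ i ∈ s, (c i).1 * (c i).1, ∑ i ∈ s, (c i).1 * (c i).2.1, ∑ i ∈ s, (c i).1 * (c i).2.2.1, ∑ i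
    ∈ s, (c i).1 * (c i).2.2.2.1, ∑ i ∈ s, (c i).1 * (c i).2.2.2.2, ∑ i ∈ s, (c i).2.1 * (c
    i).2.1, ∑ i ∈ s, (c i).2.1 * (c i).2.2.1, ∑ i ∈ s, (c i).2.1 * (c i).2.2.2.1, ∑ i ∈ s, (c
    i).2.1 * (c i).2.2.2.2, ∑ i ∈ s, (c i).2.2.1 * (c i).2.2.1, ∑ i ∈ s, (c i).2.2.1 * (c
    i).2.2.2.1, ∑ i ∈ s, (c i).2.2.1 * (c i).2.2.2.2, ∑ i ∈ s, (c i).2.2.2.1 * (c i).2.2.2.1, ∑ i
    ∈ s, (c i).2.2.2.1 * (c i).2.2.2.2, ∑ i ∈ s, (c i).2.2.2.2 * (c i).2.2.2.2⟩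

theorem sum_dot (s : Finset ι) (c : ι → V) (u w : V) :
    ∑ i ∈ s, dot u (c i) * dot w (c i) = ev (gram s c) u w := by
  simp only [ev, gram, dot, Finset.mul_sum, ← Finset.sum_add_distrib]
  exact Finset.sum_congr rfl fun i _ => by ring

theorem gram_erase [DecidableEq ι] {s : Finset ι} (c : ι → V) {i : ι} (hi : i ∈ s) :
    gram (s.erase i) c = (gram s c).sub (c i) := by
  simp only [gram, M.sub, Finset.sum_erase_eq_sub hi]

theorem Rel.add {S : M ℕ} {o : ℕ} {R : M ℤ} {v : V} (h : Rel S o R)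
    (k : Rel (dl v) 16 (M.sub ⟨0, 0, 0, 0, 0, 0, 0, 0, 0, 0, 0, 0, 0, 0, 0⟩ v)) :
    Rel (add S (dl v)) (Nat.add o 16) (R.sub v) := by
  have e : ∀ {x y : ℕ} {a b : ℤ}, (x : ℤ) = a + o → (y : ℤ) = 0 - b + (16 : ℕ) →
      (Nat.add x y : ℤ) = a - b + Nat.add o 16 := fun h1 h2 => by
    simp only [Nat.add_eq]
    omega
  obtain ⟨a1, a2, a3, a4, a5, a6, a7, a8, a9, a10, a11, a12, a13, a14, a15⟩ := h
  obtain ⟨b1, b2, b3, b4, b5, b6, b7, b8, b9, b10, b11, b12, b13, b14, b15⟩ := k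
  exact ⟨e a1 b1, e a2 b2, e a3 b3, e a4 b4, e a5 b5, e a6 b6, e a7 b7, e a8 b8, e a9 b9, e a10 b10,
    e a11 b11, e a12 b12, e a13 b13, e a14 b14, e a15 b15⟩

theorem cs_false {o x y w : ℕ} {s : Finset ι} {f g : ι → ℤ} (hx : (x : ℤ) = ∑ i ∈ s, f i * f i + o)
    (hy : (y : ℤ) = ∑ i ∈ s, g i * g i + o) (hw : (w : ℤ) = ∑ i ∈ s, f i * g i + o) :
    cs o x y w = false := by
  have h := Finset.sum_mul_sq_le_sq_mul_sq s f g
  have h1 : 0 ≤ ∑ i ∈ s, f i * f i := Finset.sum_nonneg fun _ _ => mul_self_nonneg _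
  have h2 : 0 ≤ ∑ i ∈ s, g i * g i := Finset.sum_nonneg fun _ _ => mul_self_nonneg _
  simp only [sq] at h
  rw [cs, ← Bool.not_eq_true, Nat.blt_eq, not_lt]
  simp only [Nat.add_eq, Nat.mul_eq, Nat.sub_eq]
  have e1 : ((x - o : ℕ) : ℤ) = ∑ i ∈ s, f i * f i := by omega
  have e2 : ((y - o : ℕ) : ℤ) = ∑ i ∈ s, g i * g i := by omega
  have e3 : ((w - o + (o - w) : ℕ) : ℤ) = |∑ i ∈ s, f i * g i| := by
    rcases abs_cases (∑ i ∈ s, f i * g i) with e | e <;> omega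
  zify
  rw [e1, e2, ← Nat.cast_add, e3, abs_mul_abs_self]
  exact h

theorem blt_false {o x : ℕ} {s : Finset ι} {f : ι → ℤ} (hx : (x : ℤ) = ∑ i ∈ s, f i * f i + o) :
    Nat.blt x o = false := by
  have h1 : 0 ≤ ∑ i ∈ s, f i * f i := Finset.sum_nonneg fun _ _ => mul_self_nonneg _
  rw [← Bool.not_eq_true, Nat.blt_eq]
  omega

theorem bad_false {S : M ℕ} {o : ℕ} {s : Finset ι} {c : ι → V} (h : Rel S o (gram s c)) :
    bad S o = false := by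
  obtain ⟨aa, ab, ac, ad, ae, bb, bc, bd, be, cc, cd, ce, dd, de, ee⟩ := h
  simp only [bad, blt_false aa, blt_false bb, blt_false cc, blt_false dd, blt_false ee,
    cs_false aa bb ab, cs_false aa cc ac, cs_false aa dd ad, cs_false aa ee ae, cs_false bb cc bc,
    cs_false bb dd bd, cs_false bb ee be, cs_false cc dd cd, cs_false cc ee ce, cs_false dd ee de,
    Bool.or_false]

theorem dg_eq {S : M ℕ} {o : ℕ} {s : Finset ι} {c : ι → V} (h : Rel S o (gram s c)) (k : ℕ) :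
    (dg k S : ℤ) = ∑ i ∈ s, co k (c i) * co k (c i) + o := by
  obtain ⟨aa, ab, ac, ad, ae, bb, bc, bd, be, cc, cd, ce, dd, de, ee⟩ := h
  match k with
  | 0 => exact aa
  | 1 => exact bb
  | 2 => exact cc
  | 3 => exact dd
  | _ + 4 => exact ee

/-- `t` is the codegree of a character with coordinates `c` -/
def Col (m : ℤ) (c : V) (t : ℤ) : Prop := ∃ s : ℤ, t * (vD c + 81 * s) = 81 * m

theorem pow_dvd {t u m : ℤ} (k : ℕ) (hu : u % 3 ≠ 0) (h : t * u = 3 ^ k * m) : 3 ^ k ∣ t :=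
  (((Int.prime_three.coprime_iff_not_dvd).2 (by omega)).pow_left (m := k)).dvd_of_dvd_mul_right
    ⟨m, h⟩

theorem qq_dvd {t D s m : ℤ} (h : t * (D + 81 * s) = 81 * m) : qq D ∣ t := by
  unfold qq
  split_ifs with h1 h2 h3 h4
  · exact pow_dvd 4 (by omega) h
  · obtain ⟨E, rfl⟩ : 3 ∣ D := by omega
    exact pow_dvd (u := E + 27 * s) (m := m) 3 (by omega) (by linarith)
  · obtain ⟨E, rfl⟩ : 9 ∣ D := by omega
    exact pow_dvd (u := E + 9 * s) (m := m) 2 (by omega) (by linarith)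
  · obtain ⟨E, rfl⟩ : 27 ∣ D := by omega
    exact pow_dvd (u := E + 3 * s) (m := m) 1 (by omega) (by linarith)
  · exact one_dvd _

theorem okc_dvd {m t : ℤ} {l c : V} (h : Col m c t) (k : okc l c = true) :
    81 * l.2.2.2.2 ∣ vF l c * t - 81 * m * pv l c := by
  obtain ⟨s, hs⟩ := h
  obtain ⟨t', rfl⟩ := qq_dvd hs
  simp only [okc, Bool.and_eq_true, decide_eq_true_eq] at k
  obtain ⟨a, ha⟩ := Int.dvd_of_emod_eq_zero k.1
  obtain ⟨b, hb⟩ := Int.dvd_of_emod_eq_zero k.2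
  exact ⟨t' * a - s * t' * b, by linear_combination t' * ha - 81 * s * t' * hb + pv l c * hs⟩

theorem leaf_false {m : ℤ} (hm : ¬ 3 ∣ m) {L : List (V × ℤ)} (hL : ∀ p ∈ L, Col m p.1 p.2) {l : V}
    (hF : (L.map fun p => vF l p.1 * p.2).sum = 81 * rhs l) : ok (L.map Prod.fst) l = false := by
  rw [← Bool.not_eq_true]
  simp only [ok, Bool.and_eq_true, decide_eq_true_eq, List.all_eq_true]
  rintro ⟨⟨⟨h1, h2⟩, h3⟩, h4⟩
  have h5 : 81 * l.2.2.2.2 ∣ (L.map fun p => vF l p.1 * p.2).sum -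
      81 * m * ((L.map Prod.fst).map (pv l)).sum := by
    clear hF h2 h3 h4
    induction L with
    | nil => simp
    | cons p L ih =>
      obtain ⟨w, hw⟩ := dvd_add (okc_dvd (hL p List.mem_cons_self) (h1 _ List.mem_cons_self))
        (ih (fun q hq => hL q (List.mem_cons_of_mem _ hq)) fun q hq =>
          h1 q (List.mem_cons_of_mem _ hq))
      simp only [List.map_cons, List.sum_cons]
      exact ⟨w, by linear_combination hw⟩
  rw [hF, mul_assoc, ← mul_sub, mul_dvd_mul_iff_left (by norm_num)] at h5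
  have h6 := Int.dvd_of_emod_eq_zero h2
  obtain ⟨μ, rfl | rfl⟩ : ∃ μ, m = 3 * μ + 1 ∨ m = 3 * μ + 2 := ⟨m / 3, by omega⟩
  · obtain ⟨w, hw⟩ := dvd_add h5 (h6.mul_left μ)
    exact h3 (Int.emod_eq_zero_of_dvd ⟨w, by linear_combination hw⟩)
  · obtain ⟨w, hw⟩ := dvd_add h5 (h6.mul_left μ)
    exact h4 (Int.emod_eq_zero_of_dvd ⟨w, by linear_combination hw⟩)

def Good : ℕ → List (List V) → Prop
  | _, [] => True
  | k, g :: gs => (∀ c ∈ g, co k c ≠ 0 ∧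
      Rel (dl c) 16 (M.sub ⟨0, 0, 0, 0, 0, 0, 0, 0, 0, 0, 0, 0, 0, 0, 0⟩ c)) ∧
      (∀ c ∈ gs.flatten, co k c = 0) ∧ Good (k + 1) gs

theorem co_zero (k : ℕ) : co k 0 = 0 := by
  match k with
  | 0 | 1 | 2 | 3 | _ + 4 => rfl

theorem go_false [DecidableEq ι] {m : ℤ} (hm : ¬ 3 ∣ m) (c : ι → V) (t : ι → ℤ)
    (hc : ∀ i, Col m (c i) (t i)) (n : ℕ) : ∀ (k : ℕ) (g : List V) (gs : List (List V)) (S : M ℕ)
    (o : ℕ) (L : List (V × ℤ)) (s : Finset ι), Good k (g :: gs) → Rel S o (gram s c) →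
    (∀ i ∈ s, c i = 0 ∨ c i ∈ g ∨ c i ∈ gs.flatten) → (∀ p ∈ L, Col m p.1 p.2) →
    (∀ l, (L.map fun p => vF l p.1 * p.2).sum + ∑ i ∈ s, vF l (c i) * t i = 81 * rhs l) →
    go n k g gs S o (L.map Prod.fst) = false := by
  induction n with
  | zero => intros; rfl
  | succ n ih =>
    intro k g gs S o L s hG hR hs hL hF
    have hd := dg_eq hR k
    change step (go n) k g gs S o _ = false
    cases e : Nat.beq (dg k S) o with
    | true =>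
      have h0 : ∀ i ∈ s, c i = 0 ∨ c i ∈ gs.flatten := fun i hi => by
        have h1 : ∑ i ∈ s, co k (c i) * co k (c i) = 0 := by
          have := Nat.eq_of_beq_eq_true e
          omega
        have h2 := (Finset.sum_eq_zero_iff_of_nonneg fun _ _ => mul_self_nonneg _).1 h1 i hi
        rcases hs i hi with h | h | h
        exacts [.inl h, absurd (mul_self_eq_zero.1 h2) (hG.1 _ h).1, .inr h]
      cases gs with
      | nil =>
        simp only [step, e, List.any_eq_false, Bool.not_eq_true]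
        refine fun l _ => leaf_false hm hL ?_
        rw [← hF l, Finset.sum_eq_zero, add_zero]
        intro i hi
        rw [(h0 i hi).resolve_right List.not_mem_nil]
        simp [vF, vE, vY, vZ, dot]
      | cons g' gs' =>
        simp only [step, e]
        exact ih _ _ _ _ _ _ _ hG.2.2 hR (fun i hi => (h0 i hi).imp_right List.mem_append.1) hL hF
    | false =>
      cases g with
      | nil =>
        refine absurd ?_ (Nat.ne_of_beq_eq_false e)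
        rw [Finset.sum_eq_zero fun i hi => by
          rcases hs i hi with h | h | h
          · rw [h, co_zero, mul_zero]
          · exact absurd h List.not_mem_nil
          · rw [hG.2.1 _ h, mul_zero]] at hd
        omega
      | cons v g =>
        simp only [step, e, Bool.and_eq_false_iff, Bool.or_eq_false_iff]
        by_cases hv : ∃ i ∈ s, c i = v
        · obtain ⟨i, hi, rfl⟩ := hv
          have hR' := hR.add (hG.1 _ List.mem_cons_self).2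
          rw [← gram_erase c hi] at hR'
          refine .inr ⟨bad_false hR', ih _ _ _ _ _ ((c i, t i) :: L) _ hG hR'
            (fun j hj => hs j (Finset.mem_of_mem_erase hj))
            (List.forall_mem_cons.2 ⟨hc i, hL⟩) fun l => ?_⟩
          rw [Finset.sum_erase_eq_sub hi, ← hF l, List.map_cons, List.sum_cons]
          ring
        · refine .inl (ih _ _ _ _ _ _ _ ⟨fun x hx => hG.1 x (List.mem_cons_of_mem _ hx), hG.2⟩ hR
            (fun i hi => ?_) hL hF)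
          rcases hs i hi with h | h | h
          · exact .inl h
          · exact .inr (.inl ((List.mem_cons.1 h).resolve_left fun e => hv ⟨i, hi, e⟩))
          · exact .inr (.inr h)

instance decGood : ∀ (k : ℕ) (l : List (List V)), Decidable (Good k l)
  | _, [] => isTrue trivial
  | k, _ :: gs => by
    have := decGood (k + 1) gs
    unfold Good
    infer_instance

theorem good : Good 0 (groups.head! :: groups.tail) := by decide +kernel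

def adj (v : V) : V :=
  (dot (288, -46, -52, -12, -4) v, dot (-46, 170, -78, -18, -6) v, dot (-52, -78, 182, 42, 14) v,
    dot (-12, -18, 42, 120, 40) v, dot (-4, -6, 14, 40, 93) v)

def box : List ℤ := [-2, -1, 0, 1, 2]

theorem all_box : ∀ a ∈ box, ∀ b ∈ box, ∀ c ∈ box, ∀ d ∈ box, ∀ e ∈ box,
    478 - (a * (288 * a - 92 * b - 104 * c) + b * (170 * b - 156 * c) + 182 * c * c) <
      d * (-24 * a - 36 * b + 84 * c + 120 * d) + e * (-8 * a - 12 * b + 28 * c + 80 * d + 93 * e) ∨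
      (a, b, c, d, e) = (0 : V) ∨
      (a, b, c, d, e) ∈ groups.flatten ∨ -(a, b, c, d, e) ∈ groups.flatten := by decide +kernel

theorem mem_groups {s : Finset ι} {c : ι → V} (h : gram s c = R0) {i : ι} (hi : i ∈ s) :
    c i = 0 ∨ c i ∈ groups.flatten ∨ -c i ∈ groups.flatten := by
  have k : ∀ u, dot u (c i) * dot u (c i) ≤ ev R0 u u := fun u => by
    rw [← h, ← sum_dot]
    exact Finset.single_le_sum (f := fun j => dot u (c j) * dot u (c j))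
      (fun _ _ => mul_self_nonneg _) hi
  have b : ∀ x n : ℤ, x * x ≤ n → n ≤ 6 → x ∈ box := fun x n h1 h2 => by
    have : -3 < x ∧ x < 3 := ⟨by nlinarith, by nlinarith⟩
    simp only [box, List.mem_cons, List.not_mem_nil]
    omega
  generalize c i = v at k
  obtain ⟨x, y, z, u, w⟩ := v
  refine (all_box x (b _ 2 ?_ (by norm_num)) y (b _ 4 ?_ (by norm_num)) z (b _ 4 ?_ (by norm_num))
    u (b _ 5 ?_ (by norm_num)) w (b _ 6 ?_ (by norm_num))).resolve_left fun q => ?_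
  · simpa [dot, ev, R0] using k (1, 0, 0, 0, 0)
  · simpa [dot, ev, R0] using k (0, 1, 0, 0, 0)
  · simpa [dot, ev, R0] using k (0, 0, 1, 0, 0)
  · simpa [dot, ev, R0] using k (0, 0, 0, 1, 0)
  · simpa [dot, ev, R0] using k (0, 0, 0, 0, 1)
  · have h1 := k (adj (x, y, z, u, w))
    have h2 : ev R0 (adj (x, y, z, u, w)) (adj (x, y, z, u, w)) =
        478 * dot (adj (x, y, z, u, w)) (x, y, z, u, w) := by
      simp only [ev, R0, adj, dot]
      ring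
    have h3 : 478 < dot (adj (x, y, z, u, w)) (x, y, z, u, w) := by
      simp only [adj, dot]
      linarith
    nlinarith

theorem core [Fintype ι] [DecidableEq ι] {m : ℤ} (hm : ¬ 3 ∣ m) (c : ι → V) (t : ι → ℤ)
    (hc : ∀ i, Col m (c i) (t i)) (i0 : ι) (h0 : c i0 = (0, 1, 0, 0, 0))
    (hg : gram Finset.univ c = ⟨2, 1, 1, 0, 0, 5, 2, 0, 0, 4, -1, 0, 5, -2, 6⟩)
    (hF : ∀ l, ∑ i, vF l (c i) * t i = 81 * rhs l) : False := by
  have hR : gram (Finset.univ.erase i0) c = R0 := by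
    rw [gram_erase c (Finset.mem_univ _), hg, h0]; rfl
  have k : ∀ i, ∃ ε : ℤ, (ε = 1 ∨ ε = -1) ∧
      (i ∈ Finset.univ.erase i0 → ε • c i = 0 ∨ ε • c i ∈ groups.flatten) := fun i => by
    by_cases hi : i ∈ Finset.univ.erase i0
    · rcases mem_groups hR hi with h | h | h
      · exact ⟨1, .inl rfl, fun _ => .inl (by rw [h, smul_zero])⟩
      · exact ⟨1, .inl rfl, fun _ => .inr (by rwa [one_smul])⟩
      · exact ⟨-1, .inr rfl, fun _ => .inr (by rwa [neg_one_smul])⟩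
    · exact ⟨1, .inl rfl, fun h => absurd h hi⟩
  choose ε hε k using k
  have := go_false hm (fun i => ε i • c i) (fun i => ε i * t i) (fun i => ?_) 90 0 groups.head!
    groups.tail S0 2 [(c i0, t i0)] (Finset.univ.erase i0) good ?_
    (fun i hi => (k i hi).imp_right List.mem_append.1) (List.forall_mem_cons.2 ⟨hc i0, by simp⟩)
    fun l => ?_
  · rw [List.map_singleton, h0, go_true] at this
    exact Bool.noConfusion this
  · obtain ⟨s, hs⟩ := hc i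
    refine ⟨ε i * s, hs ▸ ?_⟩
    rcases hε i with e | e
    · simp [e]
    · simp [e, vD, vE, vY, vZ, vA, vB, dot]
      ring
  · have : gram (Finset.univ.erase i0) (fun i => ε i • c i) = gram (Finset.univ.erase i0) c := by
      have e : ∀ i, ∀ x y : ℤ, ε i * x * (ε i * y) = x * y := fun i x y => by
        rcases hε i with e | e <;> rw [e] <;> ring
      simp only [gram, Prod.smul_fst, Prod.smul_snd, smul_eq_mul, e]
    rw [this, hR]
    decide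
  · rw [← hF l, ← Finset.add_sum_erase _ _ (Finset.mem_univ i0), List.map_singleton,
      List.sum_singleton]
    refine congrArg _ (Finset.sum_congr rfl fun i _ => ?_)
    rcases hε i with e | e
    · simp [e]
    · simp [e, vF, vE, vY, vZ, dot]
      ring

theorem no_sol [Fintype ι] {m : ℤ} (hm : ¬ 3 ∣ m) (E Y Z A B d t : ι → ℤ) (i0 : ι)
    (h0 : E i0 = 1 ∧ Y i0 = 1 ∧ Z i0 = 1 ∧ A i0 = 1 ∧ B i0 = 1) (ht : ∀ i, t i * d i = 81 * m)
    (c1 : ∀ i, 81 ∣ d i + 6 * E i + 12 * Y i + 26 * Z i + 18 * A i + 18 * B i)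
    (c2 : ∀ i, 27 ∣ d i + 6 * E i + 12 * Y i + 8 * Z i) (c3 : ∀ i, 9 ∣ d i + 8 * Z i)
    (c4 : ∀ i, 9 ∣ d i + 6 * Y i + 2 * Z i) (c5 : ∀ i, 9 ∣ d i + 4 * E i + 4 * Y i)
    (c6 : ∀ i, 9 ∣ d i + 2 * Z i + 6 * A i)
    (EE : ∑ i, E i * E i = 108) (YY : ∑ i, Y i * Y i = 54) (ZZ : ∑ i, Z i * Z i = 81)
    (AA : ∑ i, A i * A i = 9) (BB : ∑ i, B i * B i = 9) (EY : ∑ i, E i * Y i = 0)
    (EZ : ∑ i, E i * Z i = 0) (EA : ∑ i, E i * A i = 0) (EB : ∑ i, E i * B i = 0)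
    (YZ : ∑ i, Y i * Z i = 0) (YA : ∑ i, Y i * A i = 0) (YB : ∑ i, Y i * B i = 0)
    (ZA : ∑ i, Z i * A i = 0) (ZB : ∑ i, Z i * B i = 0) (AB : ∑ i, A i * B i = 0)
    (t1 : ∑ i, E i * E i * Y i * t i = 23328) (t2 : ∑ i, Y i * E i * Y i * t i = 11664)
    (t3 : ∑ i, Y i * Z i * Y i * t i = 17496) (t4 : ∑ i, Z i * Z i * Y i * t i = 249318) :
    False := by
  classical
  have k : ∀ i, ∃ c : V, E i = vE c ∧ Y i = vY c ∧ Z i = vZ c ∧ A i = vA c ∧ B i = vB c := fun i => by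
    have h3 := c3 i
    obtain ⟨p, hp⟩ : 3 ∣ Y i - Z i := by have := c4 i; omega
    obtain ⟨q, hq⟩ : 3 ∣ A i - Z i := by have := c6 i; omega
    obtain ⟨r, hr⟩ : 9 ∣ E i + Y i - 2 * Z i := by have := c5 i; omega
    obtain ⟨s, hs⟩ : 3 ∣ A i - B i := by
      obtain ⟨a, ha⟩ := c1 i
      obtain ⟨b, hb⟩ := c2 i
      have : 2 * (Z i + A i + B i) = 3 * (3 * a - b) := by linarith
      omega
    refine ⟨(s, A i - s, q - r, r - p, r), ?_⟩
    simp only [vE, vY, vZ, vA, vB, dot]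
    refine ⟨?_, ?_, ?_, ?_, ?_⟩ <;> linarith
  choose c hE hY hZ hA hB using k
  refine core hm c t (fun i => ?_) i0 ?_ ?_ fun l => ?_
  · obtain ⟨s, hs⟩ := c1 i
    refine ⟨s, ht i ▸ congrArg _ ?_⟩
    rw [vD, ← hE, ← hY, ← hZ, ← hA, ← hB]
    omega
  · rw [hE, hY, hZ, hA, hB] at h0
    generalize c i0 = v at h0
    obtain ⟨x, y, z, u, w⟩ := v
    simp only [vE, vY, vZ, vA, vB, dot, Prod.mk.injEq] at h0 ⊢
    omega
  · simp only [hE, hY, hZ, hA, hB, vE, vY, vZ, vA, vB, sum_dot] at EE YY ZZ AA BB EY EZ EA EB YZ YA YB ZA ZB AB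
    generalize gram Finset.univ c = R at *
    obtain ⟨aa, ab, ac, ad, ae, bb, bc, bd, be, cc, cd, ce, dd, de, ee⟩ := R
    simp only [ev, M.mk.injEq] at EE YY ZZ AA BB EY EZ EA EB YZ YA YB ZA ZB AB ⊢
    refine ⟨?_, ?_, ?_, ?_, ?_, ?_, ?_, ?_, ?_, ?_, ?_, ?_, ?_, ?_, ?_⟩ <;> linarith
  · have : 81 * rhs l = l.1 * 23328 + l.2.1 * 11664 + l.2.2.1 * 17496 + l.2.2.2.1 * 249318 := by
      rw [rhs]; ring
    rw [this, ← t1, ← t2, ← t3, ← t4]
    simp only [Finset.mul_sum, ← Finset.sum_add_distrib, vF, ← hE, ← hY, ← hZ]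
    exact Finset.sum_congr rfl fun i _ => by ring

end CfsgLib.Rec3.Ph
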